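import Mathlib

/-!
# Linear groups all of whose vector stabilizers are maximal subgroups

`H` acts faithfully and irreducibly on the elementary abelian 2-group `V` and the stabilizer of each
non-zero vector is a maximal subgroup of `H` (the point stabilizer of an affine extremely primitive
group).  If `M` is a minimal normal subgroup and `T` is a simple normal subgroup of `M` of even order
then `T = M`: otherwise a vector stabilizer in `T`, suitably chosen, would be a Frobenius complement.
-/

set_option autoImplicit false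

namespace Cfsg.Agent.H387.LinCore

open MulAction
open scoped Pointwise

section span

variable {H : Type*} [Group H] {V : Type*} [AddCommGroup V] [DistribMulAction H V]

/-- The additive subgroup generated by the `D`-orbit of `v`. -/
def sp (D : Subgroup H) (v : V) : AddSubgroup V :=
  AddSubgroup.closure {w | ∃ d ∈ D, w = d • v}

theorem self_mem_sp (D : Subgroup H) (v : V) : v ∈ sp D v :=
  AddSubgroup.subset_closure ⟨1, D.one_mem, (one_smul _ _).symm⟩

/-- `W` is invariant under `D`. -/
def Inv (D : Subgroup H) (W : AddSubgroup V) : Prop := ∀ d ∈ D, ∀ w ∈ W, d • w ∈ W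

theorem sp_le {D : Subgroup H} {v : V} {W : AddSubgroup V} (hW : Inv D W) (hv : v ∈ W) :
    sp D v ≤ W := by
  rw [sp, AddSubgroup.closure_le]
  rintro _ ⟨d, hd, rfl⟩
  exact hW d hd v hv

theorem sp_inv (D : Subgroup H) (v : V) : Inv D (sp D v) := by
  intro d hd w hw
  induction hw using AddSubgroup.closure_induction with
  | mem x hx =>
    obtain ⟨e, he, rfl⟩ := hx
    exact AddSubgroup.subset_closure ⟨d * e, D.mul_mem hd he, (mul_smul _ _ _).symm⟩
  | zero => rw [smul_zero]; exact (sp D v).zero_mem
  | add x y _ _ hx hy => rw [smul_add]; exact (sp D v).add_mem hx hy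
  | neg x _ hx => rw [smul_neg]; exact (sp D v).neg_mem hx

/-- An element commuting with `D` and fixing `v` fixes the span. -/
theorem fix_sp {D : Subgroup H} {v : V} {t : H} (htD : ∀ d ∈ D, d * t = t * d) (htv : t • v = v) :
    ∀ w ∈ sp D v, t • w = w := by
  intro w hw
  induction hw using AddSubgroup.closure_induction with
  | mem x hx =>
    obtain ⟨e, he, rfl⟩ := hx
    rw [smul_smul, ← htD e he, mul_smul, htv]
  | zero => rw [smul_zero]
  | add x y _ _ hx hy => rw [smul_add, hx, hy]
  | neg x _ hx => rw [smul_neg, hx]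

theorem smul_sp (h : H) (D : Subgroup H) (v : V) :
    h • sp D v = sp (MulAut.conj h • D) (h • v) := by
  apply le_antisymm
  · intro w hw
    rw [AddSubgroup.mem_pointwise_smul_iff_inv_smul_mem] at hw
    suffices ∀ x ∈ sp D v, h • x ∈ sp (MulAut.conj h • D) (h • v) by
      have := this _ hw
      rwa [smul_inv_smul] at this
    intro x hx
    induction hx using AddSubgroup.closure_induction with
    | mem x hx =>
      obtain ⟨e, he, rfl⟩ := hx
      refine AddSubgroup.subset_closure ⟨h * e * h⁻¹, ?_, ?_⟩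
      · exact Subgroup.smul_mem_pointwise_smul e (MulAut.conj h) D he
      · rw [smul_smul, smul_smul, inv_mul_cancel_right]
    | zero => rw [smul_zero]; exact AddSubgroup.zero_mem _
    | add x y _ _ hx hy => rw [smul_add]; exact AddSubgroup.add_mem _ hx hy
    | neg x _ hx => rw [smul_neg]; exact AddSubgroup.neg_mem _ hx
  · apply sp_le
    · intro d hd w hw
      rw [AddSubgroup.mem_pointwise_smul_iff_inv_smul_mem] at hw ⊢
      have hd' : h⁻¹ * d * h ∈ D := by
        have := Subgroup.mem_pointwise_smul_iff_inv_smul_mem.1 hd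
        rw [← map_inv, MulAut.smul_def, MulAut.conj_apply, inv_inv] at this
        exact this
      have := sp_inv D v _ hd' _ hw
      rw [smul_smul, mul_inv_cancel_right, mul_smul] at this
      exact this
    · rw [AddSubgroup.mem_pointwise_smul_iff_inv_smul_mem, inv_smul_smul]
      exact self_mem_sp D v

theorem smul_bot' (h : H) : h • (⊥ : AddSubgroup V) = ⊥ := AddSubgroup.map_bot _

/-- Irreducible `D`-submodules. -/
def Irr (D : Subgroup H) (B : AddSubgroup V) : Prop :=
  B ≠ ⊥ ∧ Inv D B ∧ ∀ W ≤ B, Inv D W → W = ⊥ ∨ W = B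

/-- `P` is contained in each subgroup which contains all the irreducible `D`-submodules of `P`. -/
def SS (D : Subgroup H) (P : AddSubgroup V) : Prop :=
  ∀ Q : AddSubgroup V, (∀ B, Irr D B → B ≤ P → B ≤ Q) → P ≤ Q

theorem Irr.ss {D : Subgroup H} {B : AddSubgroup V} (hB : Irr D B) : SS D B :=
  fun _ hQ => hQ B hB le_rfl

theorem SS.sup {D : Subgroup H} {P B : AddSubgroup V} (hP : SS D P) (hB : Irr D B) :
    SS D (P ⊔ B) := by
  intro Q hQ
  exact sup_le (hP Q fun B' hB' hle => hQ B' hB' (hle.trans le_sup_left)) (hQ B hB le_sup_right)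

theorem Inv.smul_of_commute {D : Subgroup H} {B : AddSubgroup V} (hB : Inv D B) {g : H}
    (hg : ∀ d ∈ D, d * g = g * d) : Inv D (g • B) := by
  intro d hd w hw
  rw [AddSubgroup.mem_pointwise_smul_iff_inv_smul_mem] at hw ⊢
  have h1 : g⁻¹ * d = d * g⁻¹ := by
    rw [inv_mul_eq_iff_eq_mul, ← mul_assoc, ← hg d hd, mul_inv_cancel_right]
  rw [smul_smul, h1, mul_smul]
  exact hB d hd _ hw

theorem Irr.smul_of_commute {D : Subgroup H} {B : AddSubgroup V} (hB : Irr D B) {g : H}
    (hg : ∀ d ∈ D, d * g = g * d) : Irr D (g • B) := by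
  obtain ⟨h1, h2, h3⟩ := hB
  have hg' : ∀ d ∈ D, d * g⁻¹ = g⁻¹ * d := by
    intro d hd
    rw [eq_inv_mul_iff_mul_eq, ← mul_assoc, ← hg d hd, mul_inv_cancel_right]
  refine ⟨?_, h2.smul_of_commute hg, ?_⟩
  · intro h
    apply h1
    have : g⁻¹ • (g • B) = g⁻¹ • (⊥ : AddSubgroup V) := by rw [h]
    rw [inv_smul_smul, smul_bot'] at this
    exact this
  · intro W hW hWD
    have h4 : g⁻¹ • W ≤ B := by
      rw [AddSubgroup.pointwise_smul_le_iff, inv_inv]
      exact hW
    rcases h3 _ h4 (hWD.smul_of_commute hg') with h5 | h5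
    · left
      rw [inv_smul_eq_iff, smul_bot'] at h5
      exact h5
    · right
      rw [inv_smul_eq_iff] at h5
      exact h5

theorem SS.smul_of_commute {D : Subgroup H} {P : AddSubgroup V} (hP : SS D P) {g : H}
    (hg : ∀ d ∈ D, d * g = g * d) : SS D (g • P) := by
  intro Q hQ
  rw [AddSubgroup.pointwise_smul_le_iff]
  apply hP
  intro B hB hBP
  rw [← AddSubgroup.pointwise_smul_le_iff]
  exact hQ _ (hB.smul_of_commute hg) (AddSubgroup.pointwise_smul_le_pointwise_smul_iff.2 hBP)

/-- A non-trivial invariant subgroup contains an irreducible one. -/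
theorem exists_irr_le [Finite V] {D : Subgroup H} {W : AddSubgroup V} (hW : W ≠ ⊥)
    (hWD : Inv D W) : ∃ B ≤ W, Irr D B := by
  have hfin : {B : AddSubgroup V | B ≤ W ∧ B ≠ ⊥ ∧ Inv D B}.Finite := Set.toFinite _
  obtain ⟨B, ⟨hBW, hB0, hBD⟩, hmin⟩ := hfin.exists_minimal ⟨W, le_rfl, hW, hWD⟩
  refine ⟨B, hBW, hB0, hBD, fun U hU hUD => ?_⟩
  by_cases hU0 : U = ⊥
  · exact Or.inl hU0
  · exact Or.inr (le_antisymm hU (hmin ⟨hU.trans hBW, hU0, hUD⟩ hU))

end span

section main

variable {H : Type*} [Group H] {V : Type*} [AddCommGroup V] [DistribMulAction H V]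

/-- The subgroup of vectors fixed by all elements of a subgroup. -/
def fixBy (D : Subgroup H) : AddSubgroup V where
  carrier := {v | ∀ d ∈ D, d • v = v}
  zero_mem' := fun _ _ => smul_zero _
  add_mem' := fun {a b} ha hb d hd => by rw [smul_add, ha d hd, hb d hd]
  neg_mem' := fun {a} ha d hd => by rw [smul_neg, ha d hd]

theorem mem_fixBy {D : Subgroup H} {v : V} : v ∈ fixBy D ↔ ∀ d ∈ D, d • v = v := Iff.rfl

/-- The fixed vectors of `D` are invariant under each subgroup normalizing `D`. -/
theorem fixBy_inv {D E : Subgroup H} (hDE : ∀ e ∈ E, ∀ d ∈ D, e⁻¹ * d * e ∈ D) :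
    Inv E (fixBy (V := V) D) := by
  intro e he w hw d hd
  have h1 := hw _ (hDE e he d hd)
  have h2 : d • e • w = e • ((e⁻¹ * d * e) • w) := by
    rw [smul_smul, smul_smul]
    congr 1
    group
  rw [h2, h1]

variable (hmax : ∀ v : V, v ≠ 0 → IsCoatom (stabilizer H v))
  (hirr : ∀ W : AddSubgroup V, (∀ (h : H), ∀ w ∈ W, h • w ∈ W) → W = ⊥ ∨ W = ⊤)

include hirr in
/-- A non-trivial normal subgroup fixes no non-zero vector. -/
theorem eq_bot_of_fix [FaithfulSMul H V] (M : Subgroup H) [hM : M.Normal] {v : V} (hv : v ≠ 0)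
    (hfix : M ≤ stabilizer H v) : M = ⊥ := by
  have h1 : ∀ (h : H), ∀ w ∈ fixBy (V := V) M, h • w ∈ fixBy (V := V) M := by
    intro h w hw
    exact fixBy_inv (D := M) (E := ⊤) (fun e _ d hd => by
      have := hM.conj_mem d hd e⁻¹
      rwa [inv_inv] at this) h trivial w hw
  have hvM : v ∈ fixBy (V := V) M := fun d hd => hfix hd
  rcases hirr _ h1 with h | h
  · rw [h, AddSubgroup.mem_bot] at hvM
    exact absurd hvM hv
  · rw [eq_bot_iff]
    intro m hm
    rw [Subgroup.mem_bot]
    apply FaithfulSMul.eq_of_smul_eq_smul (α := V)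
    intro w
    rw [one_smul]
    have : w ∈ fixBy (V := V) M := h ▸ AddSubgroup.mem_top w
    exact this m hm

include hmax hirr in
/-- `H = G_v M`. -/
theorem factor [FaithfulSMul H V] (M : Subgroup H) [hM : M.Normal] (hM0 : M ≠ ⊥) {v : V}
    (hv : v ≠ 0) (h : H) : ∃ c ∈ stabilizer H v, ∃ m ∈ M, h = c * m := by
  have h1 : stabilizer H v ⊔ M = ⊤ := by
    rcases (hmax v hv).le_iff.1 (le_sup_left : stabilizer H v ≤ stabilizer H v ⊔ M) with h1 | h1
    · exact h1
    · exfalso
      apply hM0
      exact eq_bot_of_fix hirr M hv (h1 ▸ le_sup_right)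
  have h2 : h ∈ stabilizer H v ⊔ M := h1 ▸ Subgroup.mem_top h
  obtain ⟨c, hc, m, hm, rfl⟩ := Subgroup.mem_sup_of_normal_right.1 h2
  exact ⟨c, hc, m, hm, rfl⟩

include hmax hirr in
/-- A non-trivial normal subgroup is irreducible. -/
theorem irreducible_normal [FaithfulSMul H V] (M : Subgroup H) [hM : M.Normal] (hM0 : M ≠ ⊥)
    (W : AddSubgroup V) (hW : Inv M W) : W = ⊥ ∨ W = ⊤ := by
  apply hirr
  intro h w hw
  by_cases hw0 : w = 0
  · rw [hw0, smul_zero]; exact W.zero_mem
  obtain ⟨c, hc, m, hm, hcm⟩ := factor hmax hirr M hM0 hw0 h⁻¹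
  have h1 : h = m⁻¹ * c⁻¹ := by rw [← mul_inv_rev, ← hcm, inv_inv]
  have h2 : c⁻¹ • w = w := by
    rw [inv_smul_eq_iff]; exact (mem_stabilizer_iff.1 hc).symm
  rw [h1, mul_smul, h2]
  exact hW _ (M.inv_mem hm) w hw

theorem mem_conj_iff {T : Subgroup H} {h x : H} :
    x ∈ MulAut.conj h • T ↔ h⁻¹ * x * h ∈ T := by
  rw [Subgroup.mem_pointwise_smul_iff_inv_smul_mem, ← map_inv, MulAut.smul_def,
    MulAut.conj_apply, inv_inv]

theorem conj_mem_conj {T : Subgroup H} (h : H) {x : H} (hx : x ∈ T) :
    h * x * h⁻¹ ∈ MulAut.conj h • T := by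
  rw [mem_conj_iff]
  have : h⁻¹ * (h * x * h⁻¹) * h = x := by group
  rwa [this]

theorem conj_eq_of_mem_normalizer {T : Subgroup H} {m : H}
    (hm : m ∈ Subgroup.normalizer (T : Set H)) : MulAut.conj m • T = T := by
  ext x
  rw [mem_conj_iff]
  have h1 := Subgroup.mem_normalizer_iff.1 (Subgroup.inv_mem _ hm) x
  rw [inv_inv] at h1
  exact h1.symm

variable {M T : Subgroup H} (hTM : T ≤ M) (hTn : M ≤ Subgroup.normalizer (T : Set H))
  (hgen : ∀ Q : Subgroup H, (∀ h : H, MulAut.conj h • T ≤ Q) → M ≤ Q)

/-- The conjugates of `T` are normalized by `M`. -/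
theorem conj_normalized [hM : M.Normal] (hTn : M ≤ Subgroup.normalizer (T : Set H)) (h : H) {m : H}
    (hm : m ∈ M) : MulAut.conj m • (MulAut.conj h • T) = MulAut.conj h • T := by
  have h1 : h⁻¹ * m * h ∈ M := by
    have := hM.conj_mem m hm h⁻¹
    rwa [inv_inv] at this
  have h2 := conj_eq_of_mem_normalizer (hTn h1)
  rw [smul_smul, ← map_mul]
  have h3 : m * h = h * (h⁻¹ * m * h) := by group
  rw [h3, map_mul, mul_smul, h2]

include hTM in
theorem conj_le [hM : M.Normal] (h : H) : MulAut.conj h • T ≤ M := by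
  intro x hx
  rw [mem_conj_iff] at hx
  have := hM.conj_mem _ (hTM hx) h
  have h2 : h * (h⁻¹ * x * h) * h⁻¹ = x := by group
  rwa [h2] at this

include hTM hTn in
/-- Distinct conjugates of `T` commute elementwise. -/
theorem conj_commute [hM : M.Normal] [Finite H] (hTs : IsSimpleGroup T) (h : H) :
    MulAut.conj h • T = T ∨ ∀ x ∈ T, ∀ y ∈ MulAut.conj h • T, x * y = y * x := by
  by_cases hne : MulAut.conj h • T = T
  · exact Or.inl hne
  right
  -- the intersection is trivial
  have hbot : T ⊓ (MulAut.conj h • T) = ⊥ := by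
    have hn : ((MulAut.conj h • T).subgroupOf T).Normal := by
      constructor
      intro n hn g
      rw [Subgroup.mem_subgroupOf] at hn ⊢
      have h1 := conj_normalized hTn h (hTM g.2)
      have h2 := conj_mem_conj (T := MulAut.conj h • T) (g : H) hn
      rw [h1] at h2
      exact h2
    rcases hTs.eq_bot_or_eq_top_of_normal _ hn with h1 | h1
    · rw [Subgroup.subgroupOf_eq_bot] at h1
      exact (disjoint_iff.1 h1.symm)
    · exfalso
      apply hne
      rw [Subgroup.subgroupOf_eq_top] at h1
      symm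
      apply Subgroup.eq_of_le_of_card_ge h1
      exact le_of_eq (Nat.card_congr (Subgroup.equivSMul (MulAut.conj h) T).toEquiv).symm
  intro x hx y hy
  have h1 : x * y * x⁻¹ ∈ MulAut.conj h • T := by
    have h1 := conj_normalized hTn h (hTM hx)
    have h2 := conj_mem_conj (T := MulAut.conj h • T) x hy
    rwa [h1] at h2
  have h2 : y * x⁻¹ * y⁻¹ ∈ T := by
    have h3 := hTn (conj_le hTM h hy)
    exact (Subgroup.mem_normalizer_iff.1 h3 x⁻¹).1 (T.inv_mem hx)
  have h3 : x * y * x⁻¹ * y⁻¹ ∈ T ⊓ (MulAut.conj h • T) := by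
    refine Subgroup.mem_inf.2 ⟨?_, Subgroup.mul_mem _ h1 (Subgroup.inv_mem _ hy)⟩
    have h4 : x * y * x⁻¹ * y⁻¹ = x * (y * x⁻¹ * y⁻¹) := by group
    rw [h4]
    exact T.mul_mem hx h2
  rw [hbot, Subgroup.mem_bot] at h3
  have h4 : x * y = (x * y * x⁻¹ * y⁻¹) * (y * x) := by group
  rw [h4, h3, one_mul]

include hTM hTn hgen in
/-- `M ≤ T C_H(T)`. -/
theorem le_sup_centralizer [hM : M.Normal] [Finite H] (hTs : IsSimpleGroup T) :
    M ≤ T ⊔ Subgroup.centralizer (T : Set H) := by
  apply hgen
  intro h
  rcases conj_commute hTM hTn hTs h with h1 | h1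
  · rw [h1]; exact le_sup_left
  · refine le_trans ?_ le_sup_right
    intro y hy
    rw [Subgroup.mem_centralizer_iff]
    intro x hx
    exact h1 x hx y hy

include hmax hirr hTM hTn hgen in
/-- `T` fixes no non-zero vector. -/
theorem T_no_fix [hM : M.Normal] [FaithfulSMul H V] (hT0 : T ≠ ⊥) {v : V} (hv : v ≠ 0)
    (hfix : T ≤ stabilizer H v) : False := by
  have hM0 : M ≠ ⊥ := fun h => hT0 (by rw [eq_bot_iff, ← h]; exact hTM)
  apply hM0
  apply eq_bot_of_fix hirr M hv
  apply hgen
  intro h
  obtain ⟨c, hc, m, hm, rfl⟩ := factor hmax hirr M hM0 hv h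
  rw [map_mul, mul_smul, conj_eq_of_mem_normalizer (hTn hm)]
  intro x hx
  rw [mem_conj_iff] at hx
  have h1 := (stabilizer H v).mul_mem ((stabilizer H v).mul_mem hc (hfix hx))
    ((stabilizer H v).inv_mem hc)
  have h2 : c * (c⁻¹ * x * c) * c⁻¹ = x := by group
  rwa [h2] at h1

include hmax hirr hTM hTn in
/-- The stabilizers of a vector in two conjugates of `T` are conjugate. -/
theorem exists_conj_fix [hM : M.Normal] [FaithfulSMul H V] (hT0 : T ≠ ⊥) {v : V} (hv : v ≠ 0)
    {x : H} (hx : x ∈ T) (hx1 : x ≠ 1) (hxv : x • v = v) (h : H) :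
    ∃ y ∈ MulAut.conj h • T, y ≠ 1 ∧ y • v = v := by
  have hM0 : M ≠ ⊥ := fun h => hT0 (by rw [eq_bot_iff, ← h]; exact hTM)
  obtain ⟨c, hc, m, hm, rfl⟩ := factor hmax hirr M hM0 hv h
  rw [map_mul, mul_smul, conj_eq_of_mem_normalizer (hTn hm)]
  refine ⟨c * x * c⁻¹, conj_mem_conj c hx, ?_, ?_⟩
  · intro h1
    apply hx1
    have : x = c⁻¹ * (c * x * c⁻¹) * c := by group
    rw [this, h1]; group
  · have h1 : x ∈ stabilizer H v := hxv
    exact (stabilizer H v).mul_mem ((stabilizer H v).mul_mem hc h1) ((stabilizer H v).inv_mem hc)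

theorem conj_centralizer (h : H) (T : Subgroup H) :
    MulAut.conj h • Subgroup.centralizer (T : Set H) =
      Subgroup.centralizer ((MulAut.conj h • T : Subgroup H) : Set H) := by
  ext x
  rw [mem_conj_iff, Subgroup.mem_centralizer_iff, Subgroup.mem_centralizer_iff]
  constructor
  · intro h1 y hy
    have h2 := h1 _ (mem_conj_iff.1 hy)
    calc y * x = h * ((h⁻¹ * y * h) * (h⁻¹ * x * h)) * h⁻¹ := by group
      _ = h * ((h⁻¹ * x * h) * (h⁻¹ * y * h)) * h⁻¹ := by rw [h2]
      _ = x * y := by group
  · intro h1 y hy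
    have h2 := h1 _ (conj_mem_conj h hy)
    calc y * (h⁻¹ * x * h) = h⁻¹ * ((h * y * h⁻¹) * x) * h := by group
      _ = h⁻¹ * (x * (h * y * h⁻¹)) * h := by rw [h2]
      _ = h⁻¹ * x * h * y := by group

/-- The elements of `H` which preserve all the spans `sp (C_H(T ^ g)) v`. -/
def famStab (T : Subgroup H) (v : V) : Subgroup H where
  carrier := {h | ∀ g : H, sp (Subgroup.centralizer ((MulAut.conj g • T : Subgroup H) : Set H)) (h • v) =
    sp (Subgroup.centralizer ((MulAut.conj g • T : Subgroup H) : Set H)) v}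
  one_mem' := fun g => by rw [one_smul]
  mul_mem' := by
    intro a b ha hb g
    have h1 := hb (a⁻¹ * g)
    have h2 := congrArg (fun W : AddSubgroup V => a • W) h1
    simp only [smul_sp, conj_centralizer, smul_smul, ← map_mul, mul_inv_cancel_left] at h2
    rw [h2]
    exact ha g
  inv_mem' := by
    intro a ha g
    have h1 := ha (a * g)
    have h2 := congrArg (fun W : AddSubgroup V => a⁻¹ • W) h1
    simp only [smul_sp, conj_centralizer, smul_smul, ← map_mul, inv_mul_cancel_left,
      inv_mul_cancel, one_smul] at h2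
    exact h2.symm

include hmax hirr hTM hTn hgen in
/-- The key step. -/
theorem fix_of_smul_sp_eq [hM : M.Normal] [Finite H] [FaithfulSMul H V] (hTs : IsSimpleGroup T)
    (hT0 : T ≠ ⊥) {v : V} (hv : v ≠ 0)
    (hP : sp (Subgroup.centralizer (T : Set H)) v ≠ ⊤) {t : H} (ht : t ∈ T)
    (htP : t • sp (Subgroup.centralizer (T : Set H)) v = sp (Subgroup.centralizer (T : Set H)) v) :
    t • v = v := by
  have hM0 : M ≠ ⊥ := fun h => hT0 (by rw [eq_bot_iff, ← h]; exact hTM)
  have hle : stabilizer H v ≤ famStab T v := by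
    intro h hh g
    rw [mem_stabilizer_iff.1 hh]
  have hnorm : ∀ t ∈ T, MulAut.conj t • T = T := fun t ht =>
    conj_eq_of_mem_normalizer (hTn (hTM ht))
  rcases (hmax v hv).le_iff.1 hle with h | h
  · exfalso
    -- `P` is invariant under `T`
    have hPT : Inv T (sp (Subgroup.centralizer (T : Set H)) v) := by
      intro s hs w hw
      have h1 : s ∈ famStab T v := h ▸ Subgroup.mem_top s
      have h2 := h1 1
      rw [map_one, one_smul] at h2
      have h3 := smul_sp s (Subgroup.centralizer (T : Set H)) v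
      rw [conj_centralizer, hnorm s hs, h2] at h3
      rw [← h3]
      exact AddSubgroup.smul_mem_pointwise_smul _ _ _ hw
    have hPM : Inv M (sp (Subgroup.centralizer (T : Set H)) v) := by
      intro m hm w hw
      have h1 := le_sup_centralizer hTM hTn hgen hTs hm
      have h2 : T ⊔ Subgroup.centralizer (T : Set H) ≤
          { carrier := {h : H | h • sp (Subgroup.centralizer (T : Set H)) v =
              sp (Subgroup.centralizer (T : Set H)) v}
            one_mem' := one_smul _ _
            mul_mem' := fun {a b} ha hb => by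
              change (a * b) • _ = _
              rw [mul_smul, show b • _ = _ from hb, show a • _ = _ from ha]
            inv_mem' := fun {a} ha => by
              change a⁻¹ • _ = _
              rw [inv_smul_eq_iff, show a • _ = _ from ha] } := by
        refine sup_le ?_ ?_
        · intro s hs
          change s • sp (Subgroup.centralizer (T : Set H)) v = _
          apply le_antisymm
          · rw [AddSubgroup.pointwise_smul_le_iff]
            intro w hw
            rw [AddSubgroup.mem_pointwise_smul_iff_inv_smul_mem, inv_inv]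
            exact hPT s hs w hw
          · intro w hw
            rw [AddSubgroup.mem_pointwise_smul_iff_inv_smul_mem]
            exact hPT _ (T.inv_mem hs) w hw
        · intro s hs
          change s • sp (Subgroup.centralizer (T : Set H)) v = _
          apply le_antisymm
          · rw [AddSubgroup.pointwise_smul_le_iff]
            intro w hw
            rw [AddSubgroup.mem_pointwise_smul_iff_inv_smul_mem, inv_inv]
            exact sp_inv _ _ s hs w hw
          · intro w hw
            rw [AddSubgroup.mem_pointwise_smul_iff_inv_smul_mem]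
            exact sp_inv _ _ _ (Subgroup.inv_mem _ hs) w hw
      have h3 : m • sp (Subgroup.centralizer (T : Set H)) v =
          sp (Subgroup.centralizer (T : Set H)) v := h2 h1
      rw [← h3]
      exact AddSubgroup.smul_mem_pointwise_smul _ _ _ hw
    rcases irreducible_normal hmax hirr M hM0 _ hPM with h1 | h1
    · have h2 := self_mem_sp (Subgroup.centralizer (T : Set H)) v
      rw [h1, AddSubgroup.mem_bot] at h2
      exact hv h2
    · exact hP h1
  · -- `t` preserves all the spans
    have h1 : t ∈ famStab T v := by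
      intro g
      rcases conj_commute hTM hTn hTs g with h1 | h1
      · rw [h1]
        have h3 := smul_sp t (Subgroup.centralizer (T : Set H)) v
        rw [conj_centralizer, hnorm t ht, htP] at h3
        exact h3.symm
      · have htC : t ∈ Subgroup.centralizer ((MulAut.conj g • T : Subgroup H) : Set H) := by
          rw [Subgroup.mem_centralizer_iff]
          intro y hy
          exact (h1 t ht y hy).symm
        have h3 := smul_sp t (Subgroup.centralizer ((MulAut.conj g • T : Subgroup H) : Set H)) v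
        rw [conj_eq_of_mem_normalizer (Subgroup.le_normalizer htC)] at h3
        rw [← h3]
        apply le_antisymm
        · rw [AddSubgroup.pointwise_smul_le_iff]
          intro w hw
          rw [AddSubgroup.mem_pointwise_smul_iff_inv_smul_mem, inv_inv]
          exact sp_inv _ _ t htC w hw
        · intro w hw
          rw [AddSubgroup.mem_pointwise_smul_iff_inv_smul_mem]
          exact sp_inv _ _ _ (Subgroup.inv_mem _ htC) w hw
    rw [h] at h1
    exact h1

end main

end Cfsg.Agent.H387.LinCore
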