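import Cfsg.Agent.H387.LinMain
import Cfsg.Agent.H382.FieldAction
import Cfsg.Agent.Lib.MinNormal
import Cfsg.Agent.S0205

/-!
# Linear groups all of whose vector stabilizers are maximal subgroups: the insoluble case

`H` acts faithfully and irreducibly on `V`, `#V = p ^ d`, the stabilizer of each non-zero vector is a
maximal subgroup of `H`, and `H` is not solvable.  Then `p = 2` and `H` is almost simple.
-/

set_option autoImplicit false

namespace Cfsg.Agent.H387.LinPrime

open MulAction Cfsg.Agent.H387.LinCore Cfsg.Agent.H387.LinMain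
open scoped Pointwise

variable {H : Type*} [Group H] [Finite H] {V : Type*} [AddCommGroup V] [Finite V] [Nontrivial V]
  [DistribMulAction H V] [FaithfulSMul H V]

/-- A finite group acting faithfully on a group generated by one element is commutative. -/
theorem comm_of_zmultiples {H : Type*} [Group H] {V : Type*} [AddCommGroup V]
    [DistribMulAction H V] [FaithfulSMul H V] (v : V) (hv : AddSubgroup.zmultiples v = ⊤)
    (a b : H) : a * b = b * a := by
  have key : ∀ w : V, ∃ k : ℤ, k • v = w := fun w =>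
    AddSubgroup.mem_zmultiples_iff.1 (hv ▸ AddSubgroup.mem_top w)
  obtain ⟨k, hk⟩ := key (a • v)
  obtain ⟨l, hl⟩ := key (b • v)
  apply FaithfulSMul.eq_of_smul_eq_smul (α := V)
  intro w
  obtain ⟨n, rfl⟩ := key w
  have h1 : ∀ (h : H) (n : ℤ) (x : V), h • (n • x) = n • (h • x) := fun h n x =>
    map_zsmul (DistribMulAction.toAddMonoidHom V h) n x
  rw [mul_smul, mul_smul, h1, h1, h1, h1, ← hk, ← hl, h1, h1, ← hk, ← hl, smul_comm k]

theorem smul_zmultiples {H : Type*} [Group H] {V : Type*} [AddCommGroup V]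
    [DistribMulAction H V] (h : H) (v : V) :
    h • AddSubgroup.zmultiples v = AddSubgroup.zmultiples (h • v) :=
  AddMonoidHom.map_zmultiples (DistribMulAction.toAddMonoidHom V h) v

/-- If `p` is odd then `H` has odd order or is abelian. -/
theorem odd_case (hmax : ∀ v : V, v ≠ 0 → IsCoatom (stabilizer H v))
    (hirr : ∀ W : AddSubgroup V, (∀ (h : H), ∀ w ∈ W, h • w ∈ W) → W = ⊥ ∨ W = ⊤)
    (h2 : ∀ v : V, v + v = 0 → v = 0) {t : H} (ht1 : t ≠ 1) (ht2 : t * t = 1) :
    Group.IsSolvable H := by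
  obtain ⟨n, hn⟩ : ∃ n : V, t • n ≠ n := by
    by_contra hcon
    push Not at hcon
    apply ht1
    apply FaithfulSMul.eq_of_smul_eq_smul (α := V)
    intro w
    rw [one_smul, hcon]
  have hm0 : t • n - n ≠ 0 := sub_ne_zero.2 hn
  have htm : t • (t • n - n) = -(t • n - n) := by
    rw [smul_sub, smul_smul, ht2, one_smul, neg_sub]
  generalize t • n - n = m at hm0 htm
  have htm' : t ∉ stabilizer H m := by
    intro h
    rw [mem_stabilizer_iff, htm, neg_eq_iff_add_eq_zero] at h
    exact hm0 (h2 m h)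
  -- the stabilizer of `⟨m⟩`
  have hle : stabilizer H m ≤ stabilizer H (AddSubgroup.zmultiples m) := by
    intro h hh
    rw [mem_stabilizer_iff] at hh ⊢
    rw [smul_zmultiples, hh]
  have ht : t ∈ stabilizer H (AddSubgroup.zmultiples m) := by
    rw [mem_stabilizer_iff, smul_zmultiples, htm, AddSubgroup.zmultiples_neg]
  rcases (hmax m hm0).le_iff.1 hle with h | h
  · rcases hirr (AddSubgroup.zmultiples m) (by
      intro g w hw
      have h1 : g ∈ stabilizer H (AddSubgroup.zmultiples m) := h ▸ Subgroup.mem_top g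
      rw [← mem_stabilizer_iff.1 h1]
      exact AddSubgroup.smul_mem_pointwise_smul _ _ _ hw) with h1 | h1
    · rw [AddSubgroup.zmultiples_eq_bot] at h1
      exact absurd h1 hm0
    · exact Group.isSolvable_of_comm (comm_of_zmultiples m h1)
  · rw [h] at ht
    exact absurd ht htm'

/-- If `H` has a non-trivial abelian normal subgroup then `H` is solvable. -/
theorem abelian_case (hmax : ∀ v : V, v ≠ 0 → IsCoatom (stabilizer H v))
    (hirr : ∀ W : AddSubgroup V, (∀ (h : H), ∀ w ∈ W, h • w ∈ W) → W = ⊥ ∨ W = ⊤)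
    {p d : ℕ} (hp : p.Prime) (hd : d ≠ 0) (hcard : Nat.card V = p ^ d)
    (A : Subgroup H) [hA : A.Normal] (hA0 : A ≠ ⊥) (hAc : ∀ a ∈ A, ∀ b ∈ A, a * b = b * a) :
    Group.IsSolvable H := by
  have : Fact p.Prime := ⟨hp⟩
  obtain ⟨v, hv⟩ := exists_ne (0 : V)
  -- the centralizer of `A` in the stabilizer of `v` is trivial
  have hC : Subgroup.centralizer (A : Set H) ⊓ stabilizer H v = ⊥ := by
    have hn : (Subgroup.centralizer (A : Set H) ⊓ stabilizer H v).Normal := by
      constructor
      intro n hn g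
      obtain ⟨c, hc, a, ha, rfl⟩ := factor hmax hirr A hA0 hv g
      obtain ⟨hn1, hn2⟩ := Subgroup.mem_inf.1 hn
      have h1 : a * n * a⁻¹ = n := by
        rw [(Subgroup.mem_centralizer_iff.1 hn1) a ha, mul_inv_cancel_right]
      have h2 : c * a * n * (c * a)⁻¹ = c * (a * n * a⁻¹) * c⁻¹ := by group
      rw [h2, h1]
      refine Subgroup.mem_inf.2 ⟨?_, (stabilizer H v).mul_mem ((stabilizer H v).mul_mem hc hn2)
        ((stabilizer H v).inv_mem hc)⟩
      rw [Subgroup.mem_centralizer_iff]
      intro b hb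
      have h3 : c⁻¹ * b * c ∈ A := by
        have := hA.conj_mem b hb c⁻¹
        rwa [inv_inv] at this
      have h4 := (Subgroup.mem_centralizer_iff.1 hn1) _ h3
      calc b * (c * n * c⁻¹) = c * ((c⁻¹ * b * c) * n) * c⁻¹ := by group
        _ = c * (n * (c⁻¹ * b * c)) * c⁻¹ := by rw [h4]
        _ = c * n * c⁻¹ * b := by group
    exact eq_bot_of_fix hirr _ hv inf_le_right
  obtain ⟨-, -, -, h, hh⟩ := H382.FieldAction.core (V := V) (p := p) (d := d) hd hcard A hA hAc
    (fun W hW => irreducible_normal hmax hirr A hA0 W hW) (by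
      intro h hh
      obtain ⟨c, hc, a, ha, hca⟩ := factor hmax hirr A hA0 hv h
      have h1 : c ∈ Subgroup.centralizer (A : Set H) ⊓ stabilizer H v := by
        refine Subgroup.mem_inf.2 ⟨?_, hc⟩
        rw [Subgroup.mem_centralizer_iff]
        intro b hb
        have h2 : c = h * a⁻¹ := by rw [hca, mul_inv_cancel_right]
        rw [h2, ← mul_assoc, hh b hb, mul_assoc, hAc b hb _ (A.inv_mem ha), mul_assoc]
      rw [hC, Subgroup.mem_bot] at h1
      rw [hca, h1, one_mul]
      exact ha)
  have hAs : Group.IsSolvable A := Group.isSolvable_of_comm fun a b =>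
    Subtype.ext (hAc a a.2 b b.2)
  have hQ : Group.IsSolvable (H ⧸ A) := by
    have hcyc : IsCyclic (H ⧸ A) := by
      refine ⟨⟨(h : H ⧸ A), ?_⟩⟩
      intro x
      obtain ⟨x, rfl⟩ := QuotientGroup.mk_surjective x
      have h1 : x ∈ A ⊔ Subgroup.zpowers h := hh ▸ Subgroup.mem_top x
      obtain ⟨a, ha, z, hz, rfl⟩ := Subgroup.mem_sup_of_normal_left.1 h1
      obtain ⟨k, rfl⟩ := Subgroup.mem_zpowers_iff.1 hz
      refine Subgroup.mem_zpowers_iff.2 ⟨k, ?_⟩
      rw [QuotientGroup.mk_mul, (QuotientGroup.eq_one_iff a).2 ha, one_mul]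
      rfl
    exact Group.isSolvable_of_comm fun a b => (IsCyclic.commGroup).mul_comm a b
  exact Group.isSolvable_of_ker_le_range A.subtype (QuotientGroup.mk' A) (by
    rw [QuotientGroup.ker_mk', Subgroup.range_subtype])

/-- **The linear form of the theorem.** -/
theorem linear_main (hmax : ∀ v : V, v ≠ 0 → IsCoatom (stabilizer H v))
    (hirr : ∀ W : AddSubgroup V, (∀ (h : H), ∀ w ∈ W, h • w ∈ W) → W = ⊥ ∨ W = ⊤)
    {p d : ℕ} (hp : p.Prime) (hd : d ≠ 0) (hcard : Nat.card V = p ^ d)
    (hsol : ¬ Group.IsSolvable H) :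
    p = 2 ∧ ∃ T : Subgroup H, T.Normal ∧ IsSimpleGroup T ∧ ¬ IsMulCommutative T ∧
      Subgroup.centralizer (T : Set H) = ⊥ := by
  -- the order of `H` is even
  have heven : ∀ K : Subgroup H, ¬ Group.IsSolvable K → ∃ z ∈ K, z ≠ 1 ∧ z * z = 1 := by
    intro K hK
    have h1 : ¬ Odd (Nat.card K) := fun h => hK (Cfsg.Agent.S0205.result h)
    rw [Nat.not_odd_iff_even] at h1
    have : Fact (Nat.Prime 2) := ⟨Nat.prime_two⟩
    obtain ⟨z, hz⟩ := exists_prime_orderOf_dvd_card' (G := K) 2 h1.two_dvd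
    refine ⟨z, z.2, ?_, ?_⟩
    · intro h
      have : z = 1 := Subtype.ext h
      rw [this, orderOf_one] at hz
      omega
    · have h2 := pow_orderOf_eq_one z
      rw [hz, pow_two] at h2
      exact congrArg Subtype.val h2
  have hp2 : p = 2 := by
    by_contra hp2
    have hsolT : ¬ Group.IsSolvable (⊤ : Subgroup H) := by
      intro h
      exact hsol (Group.isSolvable_of_surjective (f := (Subgroup.topEquiv (G := H)).toMonoidHom)
        Subgroup.topEquiv.surjective)
    obtain ⟨t, -, ht1, ht2⟩ := heven ⊤ hsolT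
    apply hsol
    refine odd_case hmax hirr ?_ ht1 ht2
    intro v hv
    have h1 : addOrderOf v ∣ 2 := by
      rw [addOrderOf_dvd_iff_nsmul_eq_zero, two_nsmul]
      exact hv
    have h2 : addOrderOf v ∣ p ^ d := hcard ▸ addOrderOf_dvd_natCard v
    have h3 : Nat.Coprime 2 (p ^ d) := by
      apply Nat.Coprime.pow_right
      rw [Nat.coprime_primes Nat.prime_two hp]
      exact fun h => hp2 h.symm
    have h4 : addOrderOf v = 1 := Nat.eq_one_of_dvd_coprimes h3 h1 h2
    exact AddMonoid.addOrderOf_eq_one_iff.1 h4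
  refine ⟨hp2, ?_⟩
  subst hp2
  -- `V` is elementary abelian
  have h2 : ∀ v : V, v + v = 0 := by
    let W : AddSubgroup V :=
      { carrier := {v | v + v = 0}
        zero_mem' := add_zero 0
        add_mem' := fun {a b} ha hb => by
          change a + b + (a + b) = 0
          rw [add_add_add_comm, show a + a = 0 from ha, show b + b = 0 from hb, add_zero]
        neg_mem' := fun {a} ha => by
          change -a + -a = 0
          rw [← neg_add, show a + a = 0 from ha, neg_zero] }
    rcases hirr W (by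
      intro h w hw
      change h • w + h • w = 0
      rw [← smul_add, show w + w = 0 from hw, smul_zero]) with h | h
    · exfalso
      have : Fact (Nat.Prime 2) := ⟨Nat.prime_two⟩
      obtain ⟨z, hz⟩ := exists_prime_addOrderOf_dvd_card' (G := V) 2 (by
        rw [hcard]; exact dvd_pow_self 2 hd)
      have h1 : z ∈ W := by
        change z + z = 0
        have := addOrderOf_nsmul_eq_zero z
        rwa [hz, two_nsmul] at this
      rw [h, AddSubgroup.mem_bot] at h1
      rw [h1, addOrderOf_zero] at hz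
      omega
    · intro v
      have : v ∈ W := h ▸ AddSubgroup.mem_top v
      exact this
  -- a minimal normal subgroup
  have hnt : Nontrivial H := by
    by_contra hcon
    rw [not_nontrivial_iff_subsingleton] at hcon
    exact hsol (Group.isSolvable_of_comm fun a b => Subsingleton.elim _ _)
  have hfin : {M : Subgroup H | M.Normal ∧ M ≠ ⊥}.Finite := Set.toFinite _
  obtain ⟨M, ⟨hMn, hM0⟩, hMmin⟩ := hfin.exists_minimal ⟨⊤, inferInstance, top_ne_bot⟩
  have := hMn
  have hmin : ∀ K : Subgroup H, K.Normal → K ≤ M → K = ⊥ ∨ K = M := by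
    intro K hK hKM
    by_cases hK0 : K = ⊥
    · exact Or.inl hK0
    · exact Or.inr (le_antisymm hKM (hMmin ⟨hK, hK0⟩ hKM))
  obtain ⟨m, T, hm, hTM, hTs, hTn, -, -, -, -, -⟩ :=
    Cfsg.Agent.Lib.MinNormal.exists_internal_decomposition M hM0 hmin
  have hT0 : T ⟨0, hm⟩ ≠ ⊥ := by
    intro h
    have := (hTs ⟨0, hm⟩).toNontrivial
    rw [h] at this
    exact not_subsingleton _ (inferInstance : Subsingleton (⊥ : Subgroup H))
  have hgen : ∀ Q : Subgroup H, (∀ h : H, MulAut.conj h • T ⟨0, hm⟩ ≤ Q) → M ≤ Q := by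
    intro Q hQ
    rw [← Cfsg.Agent.Lib.MinNormal.sSup_conjugates hmin (hTM ⟨0, hm⟩) hT0]
    apply sSup_le
    rintro _ ⟨g, rfl⟩
    exact hQ g
  have hMnc : ¬ ∀ a ∈ M, ∀ b ∈ M, a * b = b * a := fun h =>
    hsol (abelian_case hmax hirr hp hd hcard M hM0 h)
  have hTnc : ¬ ∀ a ∈ T ⟨0, hm⟩, ∀ b ∈ T ⟨0, hm⟩, a * b = b * a := by
    intro h
    apply hMnc
    -- then `M` is abelian
    have h1 : M ≤ Subgroup.centralizer (T ⟨0, hm⟩ : Set H) := by
      refine (le_sup_centralizer (hTM _) (hTn _) hgen (hTs _)).trans (sup_le ?_ le_rfl)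
      intro x hx
      rw [Subgroup.mem_centralizer_iff]
      intro y hy
      exact h y hy x hx
    have h2 : M ≤ Subgroup.centralizer (M : Set H) := by
      apply hgen
      intro g x hx
      rw [mem_conj_iff] at hx
      rw [Subgroup.mem_centralizer_iff]
      intro y hy
      have h3 : g⁻¹ * y * g ∈ M := by
        have := hMn.conj_mem y hy g⁻¹
        rwa [inv_inv] at this
      have h4 := (Subgroup.mem_centralizer_iff.1 (h1 h3)) _ hx
      calc y * x = g * ((g⁻¹ * y * g) * (g⁻¹ * x * g)) * g⁻¹ := by group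
        _ = g * ((g⁻¹ * x * g) * (g⁻¹ * y * g)) * g⁻¹ := by rw [h4]
        _ = x * y := by group
    intro a ha b hb
    exact (Subgroup.mem_centralizer_iff.1 (h2 hb)) a ha
  have hTsol : ¬ Group.IsSolvable (T ⟨0, hm⟩) := by
    intro h
    have := hTs ⟨0, hm⟩
    apply hTnc
    have h1 := (IsSimpleGroup.comm_iff_isSolvable (G := T ⟨0, hm⟩)).2 h
    intro a ha b hb
    exact congrArg Subtype.val (h1 ⟨a, ha⟩ ⟨b, hb⟩)
  obtain ⟨z, hzT, hz1, hz2⟩ := heven _ hTsol
  have hTeq := eq_of_simple h2 hmax hirr (hTM ⟨0, hm⟩) (hTn ⟨0, hm⟩) hgen (hTs _) hzT hz1 hz2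
  refine ⟨M, hMn, hTeq ▸ hTs ⟨0, hm⟩, ?_, ?_⟩
  · intro h
    apply hMnc
    intro a ha b hb
    exact congrArg Subtype.val (h.is_comm.comm ⟨a, ha⟩ ⟨b, hb⟩)
  · by_contra hC
    -- the centralizer is normal and irreducible
    have hCn : (Subgroup.centralizer (M : Set H)).Normal := by
      constructor
      intro n hn g
      rw [Subgroup.mem_centralizer_iff] at hn ⊢
      intro y hy
      have h3 : g⁻¹ * y * g ∈ M := by
        have := hMn.conj_mem y hy g⁻¹
        rwa [inv_inv] at this
      have h4 := hn _ h3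
      calc y * (g * n * g⁻¹) = g * ((g⁻¹ * y * g) * n) * g⁻¹ := by group
        _ = g * (n * (g⁻¹ * y * g)) * g⁻¹ := by rw [h4]
        _ = g * n * g⁻¹ * y := by group
    have hzM : z ∈ M := hTM _ hzT
    obtain ⟨v, hv0, hzv⟩ := exists_fixed (V := V) h2 hz2
    have hinv : Inv (Subgroup.centralizer (M : Set H)) (fixBy (V := V) (Subgroup.zpowers z)) := by
      apply fixBy_inv
      intro e he d hd
      obtain ⟨k, rfl⟩ := Subgroup.mem_zpowers_iff.1 hd
      have h3 : e⁻¹ * z ^ k * e = z ^ k := by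
        have h4 := (Subgroup.mem_centralizer_iff.1 he) _ (M.zpow_mem hzM k)
        rw [mul_assoc, h4, inv_mul_cancel_left]
      rw [h3]
      exact hd
    have hmem : v ∈ fixBy (V := V) (Subgroup.zpowers z) := by
      intro d hd
      have : Subgroup.zpowers z ≤ stabilizer H v := by
        rw [Subgroup.zpowers_le]; exact hzv
      exact this hd
    rcases irreducible_normal hmax hirr _ hC _ hinv with h | h
    · rw [h, AddSubgroup.mem_bot] at hmem
      exact hv0 hmem
    · apply hz1
      apply FaithfulSMul.eq_of_smul_eq_smul (α := V)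
      intro w
      rw [one_smul]
      have h3 : w ∈ fixBy (V := V) (Subgroup.zpowers z) := h ▸ AddSubgroup.mem_top w
      exact h3 z (Subgroup.mem_zpowers z)

end Cfsg.Agent.H387.LinPrime
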